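import Cfsg.Agent.Lib.Helper50.CentrallyLarge2

set_option autoImplicit false
open scoped Pointwise commutatorElement

namespace Cfsg.Agent.Lib.Helper50

section
variable {G : Type*} [Group G] [Finite G]

theorem mincl_inf_sup {Q R : Subgroup G} (hQ : Cfsg.IsMinimalCentrallyLarge Q)
    (hR : Cfsg.IsCentrallyLarge R) : (Q ⊓ R) ⊔ Subgroup.centralizer (Q : Set G) = Q := by
  have hQl := cl_large hQ.1
  have hRl := cl_large hR
  obtain ⟨-, -, hI, hset, hCI⟩ := cd_main hQl hRl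
  obtain ⟨hC, hCC⟩ := cd_centralizer hQl
  have hZQ := cl_centralizer_le hQ.1
  have hZR := cl_centralizer_le hR
  apply hQ.2 _ (sup_le inf_le_left hZQ)
  rw [isCentrallyLarge_iff]
  refine ⟨(cd_main hI hC).2.1, ?_⟩
  rw [centralizer_sup, hCI, ← hCC]
  rintro x ⟨hx1, hx2⟩
  have hx1' : x ∈ ((Subgroup.centralizer (Q : Set G) ⊔ Subgroup.centralizer (R : Set G) : Subgroup G) : Set G) := hx1
  rw [hset] at hx1'
  obtain ⟨z₁, hz₁, z₂, hz₂, rfl⟩ := hx1'
  have hz₂Q : z₂ ∈ Q := by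
    have := Q.mul_mem (Q.inv_mem (hZQ hz₁)) hx2
    simpa using this
  exact Subgroup.mul_mem _ ((le_sup_right : _ ≤ (Q ⊓ R) ⊔ Subgroup.centralizer (Q : Set G)) hz₁)
    ((le_sup_left : _ ≤ (Q ⊓ R) ⊔ Subgroup.centralizer (Q : Set G)) ⟨hz₂Q, hZR hz₂⟩)

theorem mincl_coe_inf_sup {Q R : Subgroup G} (hQ : Cfsg.IsMinimalCentrallyLarge Q)
    (hR : Cfsg.IsCentrallyLarge R) :
    (Q : Set G) = ((Q ⊓ R : Subgroup G) : Set G) * (Subgroup.centralizer (Q : Set G) : Set G) := by
  have h := mincl_inf_sup hQ hR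
  have h2 : (((Q ⊓ R) ⊔ Subgroup.centralizer (Q : Set G) : Subgroup G) : Set G) =
      ((Q ⊓ R : Subgroup G) : Set G) * (Subgroup.centralizer (Q : Set G) : Set G) := by
    apply Subgroup.coe_mul_of_left_le_normalizer_right
    calc Q ⊓ R ≤ Q := inf_le_left
      _ ≤ Subgroup.centralizer ((Subgroup.centralizer (Q : Set G) : Subgroup G) : Set G) :=
        le_centralizer_centralizer Q
      _ ≤ _ := Subgroup.centralizer_le_normalizer _
  rw [h] at h2
  exact h2

omit [Finite G] in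
theorem commutator_mul_central {a b z w : G} (h1 : z * b = b * z) (h2 : z * w = w * z)
    (h3 : w * a⁻¹ = a⁻¹ * w) : ⁅a * z, b * w⁆ = ⁅a, b⁆ := by
  rw [commutatorElement_def, commutatorElement_def]
  calc a * z * (b * w) * (a * z)⁻¹ * (b * w)⁻¹
      = a * (z * b) * w * z⁻¹ * a⁻¹ * w⁻¹ * b⁻¹ := by group
    _ = a * b * (z * w) * z⁻¹ * a⁻¹ * w⁻¹ * b⁻¹ := by rw [h1]; group
    _ = a * b * (w * a⁻¹) * w⁻¹ * b⁻¹ := by rw [h2]; group
    _ = a * b * a⁻¹ * b⁻¹ := by rw [h3]; group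

theorem mincl_commutator_eq_inf {Q R : Subgroup G} (hQ : Cfsg.IsMinimalCentrallyLarge Q)
    (hR : Cfsg.IsCentrallyLarge R) : ⁅Q, Q⁆ = ⁅Q ⊓ R, Q ⊓ R⁆ := by
  apply le_antisymm
  · rw [Subgroup.commutator_le]
    intro g₁ hg₁ g₂ hg₂
    have hg₁' : g₁ ∈ (Q : Set G) := hg₁
    have hg₂' : g₂ ∈ (Q : Set G) := hg₂
    rw [mincl_coe_inf_sup hQ hR] at hg₁' hg₂'
    obtain ⟨a, ha, z, hz, rfl⟩ := hg₁'
    obtain ⟨b, hb, w, hw, rfl⟩ := hg₂'
    have hZQ := cl_centralizer_le hQ.1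
    have hz' := Subgroup.mem_centralizer_iff.1 hz
    have hw' := Subgroup.mem_centralizer_iff.1 hw
    change ⁅a * z, b * w⁆ ∈ _
    rw [commutator_mul_central (hz' b hb.1).symm (hz' w (hZQ hw)).symm (hw' a⁻¹ (Q.inv_mem ha.1)).symm]
    exact Subgroup.commutator_mem_commutator ha hb
  · exact Subgroup.commutator_mono inf_le_left inf_le_left

theorem mincl_commutator_eq {Q R : Subgroup G} (hQ : Cfsg.IsMinimalCentrallyLarge Q)
    (hR : Cfsg.IsMinimalCentrallyLarge R) : ⁅Q, Q⁆ = ⁅R, R⁆ := by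
  rw [mincl_commutator_eq_inf hQ hR.1, mincl_commutator_eq_inf hR hQ.1, inf_comm]

theorem mincl_inf_centralizer_le {Q R : Subgroup G} (hQ : Cfsg.IsMinimalCentrallyLarge Q)
    (hR : Cfsg.IsMinimalCentrallyLarge R) :
    (Q ⊓ R) ⊓ Subgroup.centralizer (Q : Set G) ≤ (R ⊓ Q) ⊓ Subgroup.centralizer (R : Set G) := by
  rintro x ⟨⟨hxQ, hxR⟩, hxC⟩
  refine ⟨⟨hxR, hxQ⟩, ?_⟩
  have h := mincl_inf_sup hR hQ.1
  have h2 : (R ⊓ Q) ⊔ Subgroup.centralizer (R : Set G) ≤ Subgroup.centralizer ({x} : Set G) := by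
    apply sup_le
    · intro y hy
      rw [Subgroup.mem_centralizer_singleton_iff]
      exact (Subgroup.mem_centralizer_iff.1 hxC) y hy.2
    · intro y hy
      rw [Subgroup.mem_centralizer_singleton_iff]
      exact ((Subgroup.mem_centralizer_iff.1 hy) x hxR).symm
  rw [h] at h2
  change x ∈ Subgroup.centralizer (R : Set G)
  rw [Subgroup.mem_centralizer_iff]
  intro y hy
  exact Subgroup.mem_centralizer_singleton_iff.1 (h2 hy)

theorem mincl_arith {q r zq zr i d : ℕ} (hi : 0 < i) (hzq : 0 < zq)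
    (h1 : q * d = i * zq) (h2 : r * d = i * zr) (h3 : q * zq = r * zr) : q = r ∧ zq = zr := by
  have e : i * (zq * zq) = i * (zr * zr) := by
    calc i * (zq * zq) = (i * zq) * zq := by ring
      _ = (q * zq) * d := by rw [← h1]; ring
      _ = (r * d) * zr := by rw [h3]; ring
      _ = i * (zr * zr) := by rw [h2]; ring
  have e2 : zq * zq = zr * zr := Nat.eq_of_mul_eq_mul_left hi e
  have e3 : zq = zr := Nat.mul_self_inj.1 e2
  refine ⟨?_, e3⟩
  rw [← e3] at h3
  exact Nat.eq_of_mul_eq_mul_right hzq h3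

theorem mincl_card {Q R : Subgroup G} (hQ : Cfsg.IsMinimalCentrallyLarge Q)
    (hR : Cfsg.IsMinimalCentrallyLarge R) :
    Nat.card Q = Nat.card R ∧
      Nat.card (Subgroup.centralizer (Q : Set G)) = Nat.card (Subgroup.centralizer (R : Set G)) := by
  have e1 : (Q ⊓ R) ⊓ Subgroup.centralizer (Q : Set G) = (R ⊓ Q) ⊓ Subgroup.centralizer (R : Set G) :=
    le_antisymm (mincl_inf_centralizer_le hQ hR) (mincl_inf_centralizer_le hR hQ)
  have key : ∀ {Q R : Subgroup G}, Cfsg.IsMinimalCentrallyLarge Q → Cfsg.IsCentrallyLarge R →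
      Nat.card Q * Nat.card ((Q ⊓ R) ⊓ Subgroup.centralizer (Q : Set G) : Subgroup G) =
        Nat.card (Q ⊓ R : Subgroup G) * Nat.card (Subgroup.centralizer (Q : Set G)) := by
    intro Q R hQ hR
    have h := mincl_inf_sup hQ hR
    have h2 := mincl_coe_inf_sup hQ hR
    have h3 := card_sup_mul_card_inf_of_coe (H := Q ⊓ R) (K := Subgroup.centralizer (Q : Set G))
      (by rw [h]; exact h2)
    rw [h] at h3
    exact h3
  have h1 := key hQ hR.1
  have h2 := key hR hQ.1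
  rw [← e1, inf_comm R Q] at h2
  have h3 : Nat.card Q * Nat.card (Subgroup.centralizer (Q : Set G)) =
      Nat.card R * Nat.card (Subgroup.centralizer (R : Set G)) :=
    (cl_large hQ.1 : _ = _).trans (cl_large hR.1 : _ = _).symm
  exact mincl_arith Nat.card_pos Nat.card_pos h1 h2 h3

theorem card_sq_le_cdm {B : Subgroup G} (hB : IsMulCommutative B) : Nat.card B * Nat.card B ≤ cdm B :=
  Nat.mul_le_mul_left _ (Subgroup.card_le_of_le (isMulCommutative_iff_le_centralizer.1 hB))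

theorem mincl_abelian_iff {Q : Subgroup G} (hQ : Cfsg.IsMinimalCentrallyLarge Q)
    (hQc : IsMulCommutative Q) (X : Subgroup G) :
    Cfsg.IsMinimalCentrallyLarge X ↔ X ∈ Cfsg.maxAbelianSubgroups G := by
  have hCQ : Subgroup.centralizer (Q : Set G) = Q :=
    le_antisymm (cl_centralizer_le hQ.1) (isMulCommutative_iff_le_centralizer.1 hQc)
  have hM : Nat.card Q * Nat.card Q = Cfsg.maxCentralizerProduct G := by
    have := cl_large hQ.1
    unfold Cfsg.IsCentralizerLarge at this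
    rwa [hCQ] at this
  constructor
  · intro hX
    obtain ⟨h1, h2⟩ := mincl_card hX hQ
    rw [hCQ, ← h1] at h2
    have hCX : Subgroup.centralizer (X : Set G) = X :=
      Subgroup.eq_of_le_of_card_ge (cl_centralizer_le hX.1) h2.ge
    refine ⟨isMulCommutative_iff_le_centralizer.2 hCX.ge, fun B hB => ?_⟩
    have h3 := (card_sq_le_cdm hB).trans (cdm_le_max B)
    rw [← hM, ← h1] at h3
    exact Nat.mul_self_le_mul_self_iff.1 h3
  · intro hX
    have hCX := maxAbelian_centralizer_eq hX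
    have h1 : Nat.card Q ≤ Nat.card X := hX.2 Q hQc
    have hXl : Cfsg.IsCentralizerLarge X := by
      apply isCentralizerLarge_of_le
      unfold cdm
      rw [hCX, ← hM]
      exact Nat.mul_le_mul h1 h1
    refine ⟨isCentrallyLarge_iff.2 ⟨hXl, hCX.le⟩, fun X' hX' hcl => ?_⟩
    have hX'c : X' ≤ Subgroup.centralizer (X' : Set G) :=
      hX'.trans (hCX.ge.trans (Subgroup.centralizer_le hX'))
    have hCX' : Subgroup.centralizer (X' : Set G) = X' := le_antisymm (cl_centralizer_le hcl) hX'c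
    have h2 : Nat.card X' * Nat.card X' = Nat.card X * Nat.card X := by
      have e1 := cl_large hcl
      unfold Cfsg.IsCentralizerLarge at e1 hXl
      rw [hCX'] at e1
      rw [hCX] at hXl
      rw [e1, hXl]
    exact Subgroup.eq_of_le_of_card_ge hX' (Nat.mul_self_inj.1 h2).ge

end

end Cfsg.Agent.Lib.Helper50
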