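import Cfsg.Agent.Lib.Helper50.HSub
import Cfsg.Agent.Lib.Helper50.SylowConj

set_option autoImplicit false

namespace Cfsg.Agent.Lib.Helper50

variable {G : Type*} [Group G]

/-- the image of an `ℋ`-subgroup of prime power order in a quotient group is an `ℋ`-subgroup. -/
theorem IsH.map_mk' [Finite G] {p : ℕ} [Fact p.Prime] {F : Subgroup G} (hF : IsH F)
    (hFp : IsPGroup p F) (K : Subgroup G) [K.Normal] : IsH (F.map (QuotientGroup.mk' K)) := by
  intro gbar xbar hx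
  obtain ⟨hx1, hx2⟩ := hx
  obtain ⟨g, rfl⟩ := QuotientGroup.mk'_surjective K gbar
  obtain ⟨_, ⟨f, hf, rfl⟩, rfl⟩ := hx1
  set π := QuotientGroup.mk' K with hπ
  have hxbar : (MulAut.conj (π g)).toMonoidHom (π f) = π (g * f * g⁻¹) := by simp
  rw [hxbar] at hx2 ⊢
  set x := g * f * g⁻¹ with hxdef
  let Tbar : Subgroup (G ⧸ K) := F.map π ⊔ Subgroup.zpowers (π x)
  have hTn : Tbar ≤ Subgroup.normalizer ((F.map π : Subgroup (G ⧸ K)) : Set (G ⧸ K)) :=
    sup_le Subgroup.le_normalizer (Subgroup.zpowers_le.mpr hx2)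
  let W : Subgroup G := Tbar.comap π
  have hFW : F ≤ W := fun z hz => (le_sup_left : F.map π ≤ Tbar) ⟨z, hz, rfl⟩
  have hxW : x ∈ W := (le_sup_right : Subgroup.zpowers (π x) ≤ Tbar) (Subgroup.mem_zpowers _)
  obtain ⟨S, hS⟩ := (hFp.comap_of_injective W.subtype W.subtype_injective :
    IsPGroup p (F.subgroupOf W)).exists_le_sylow
  have hQ' : IsPGroup p ((F.map (MulAut.conj g).toMonoidHom).subgroupOf W) :=
    (hFp.map _).comap_of_injective W.subtype W.subtype_injective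
  obtain ⟨w, hw⟩ := exists_map_conj_le_sylow S hQ'
  have hx' : (⟨x, hxW⟩ : W) ∈ (F.map (MulAut.conj g).toMonoidHom).subgroupOf W := by
    rw [Subgroup.mem_subgroupOf]
    exact ⟨f, hf, by simp [hxdef]⟩
  have h0 : w * ⟨x, hxW⟩ * w⁻¹ ∈ (S : Subgroup W) := hw ⟨_, hx', by simp⟩
  let SG : Subgroup G := (S : Subgroup W).map W.subtype
  have hSGp : IsPGroup p SG := S.2.map _
  have hFS : F ≤ SG := by
    intro z hz
    exact ⟨⟨z, hFW hz⟩, hS (show z ∈ F from hz), rfl⟩
  have hSn := hF.le_normalizer hSGp hFS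
  have h1 : ((w : G) * g) * f * ((w : G) * g)⁻¹ ∈ SG := by
    refine ⟨_, h0, ?_⟩
    simp only [Subgroup.subtype_apply, Subgroup.coe_mul, Subgroup.coe_inv, hxdef]
    group
  have h2 := hF.conj_mem hSn hf h1
  have h3 : π w * π x * (π w)⁻¹ ∈ F.map π := by
    refine ⟨_, h2, ?_⟩
    simp only [hxdef, map_mul, map_inv]
    group
  have hwT : π w ∈ Tbar := w.2
  exact (Subgroup.mem_normalizer_iff.mp (hTn hwT) (π x)).mpr h3

end Cfsg.Agent.Lib.Helper50
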