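import Cfsg.Agent.Lib.Helper50.TateFusion
import Cfsg.Agent.Lib.Helper33.Alperin

set_option autoImplicit false

namespace Cfsg.Agent.Lib.Helper50

open Cfsg Cfsg.Agent.Lib.Lead Cfsg.Agent.Lib.Helper33
open scoped Pointwise

/-- **Local criterion for a normal `p`-complement** (Alperin + Tate): if for every fully normalized subgroup
`T` of the Sylow `p`-subgroup `P`, the group `N_G(T)` acts trivially on `T` modulo every maximal subgroup of `P`,
then `G` has a normal `p`-complement. -/
theorem hasNormalPComplement_of_local_fusion {G : Type*} [Group G] [Finite G] {p : ℕ}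
    [Fact p.Prime] (P : Sylow p G)
    (hloc : ∀ T : Subgroup G, T ≤ (P : Subgroup G) →
      RelSyl p ((P : Subgroup G) ⊓ Subgroup.normalizer (T : Set G)) (Subgroup.normalizer (T : Set G)) →
      ∀ t ∈ Subgroup.normalizer (T : Set G), ∀ a ∈ T, ∀ M : Subgroup G, M ≤ (P : Subgroup G) →
        IsCoatom (M.subgroupOf (P : Subgroup G)) → t * a * t⁻¹ * a⁻¹ ∈ M) :
    HasNormalPComplement p G := by
  apply hasNormalPComplement_of_pResidual_le_frattini P
  apply pResidual_subgroupOf_le_frattini_of_fusion P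
  intro M' hM' x hx g hg
  set M : Subgroup G := M'.map (P : Subgroup G).subtype with hM
  have hMP : M ≤ (P : Subgroup G) := Subgroup.map_subtype_le M'
  have hMM : M.subgroupOf (P : Subgroup G) = M' :=
    Subgroup.comap_map_eq_self_of_injective (P : Subgroup G).subtype_injective M'
  let 𝓕 : Set (Subgroup G) := {U | U ≤ (P : Subgroup G) ∧
    RelSyl p ((P : Subgroup G) ⊓ Subgroup.normalizer (U : Set G)) (Subgroup.normalizer (U : Set G))}
  have h𝓕 : ∀ U ∈ 𝓕, U ≤ (P : Subgroup G) := fun U hU => hU.1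
  have hfn : ∀ T : Subgroup G, T ≤ (P : Subgroup G) → ∃ U ∈ 𝓕, (∃ g : G, MulAut.conj g • T = U) ∧
      RelSyl p ((P : Subgroup G) ⊓ Subgroup.normalizer (U : Set G))
        (Subgroup.normalizer (U : Set G)) := by
    intro T hT
    obtain ⟨u, hu1, hu2⟩ := exists_fully_normalized P hT
    have hle : MulAut.conj u • T ≤ (P : Subgroup G) := by
      have h1 : T ≤ (P : Subgroup G) ⊓ Subgroup.normalizer (T : Set G) :=
        le_inf hT Subgroup.le_normalizer
      exact ((Subgroup.pointwise_smul_le_pointwise_smul_iff.2 h1).trans hu1).trans inf_le_left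
    exact ⟨MulAut.conj u • T, ⟨hle, hu2⟩, ⟨u, rfl⟩, hu2⟩
  have hA : ({x} : Set G) ⊆ ((P : Subgroup G) : Set G) := by
    intro y hy
    rw [Set.mem_singleton_iff] at hy
    rw [hy]; exact hx
  have hgA : MulAut.conj g • ({x} : Set G) ⊆ ((P : Subgroup G) : Set G) := by
    rintro _ ⟨y, hy, rfl⟩
    rw [Set.mem_singleton_iff] at hy
    rw [hy]
    exact hg
  have chain := alperin_set P 𝓕 h𝓕 hfn {x} hA g hgA
  have hs : ∀ (A : Set G) (t : G), stepF 𝓕 A t → GoodD M A t := by
    rintro A t ⟨T, hT, ht, hAT⟩ a ha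
    exact hloc T hT.1 hT.2 t ht a (hAT ha) M hMP (by rw [hMM]; exact hM')
  have hgood : GoodD M {x} g := FusionRel.of_stepChain (fusionRel_goodD M) hs chain
  have h1 : g * x * g⁻¹ * x⁻¹ ∈ M := hgood x rfl
  obtain ⟨z, hz, hz'⟩ := h1
  have : z = (⟨g * x * g⁻¹, hg⟩ : ↥(P : Subgroup G)) * (⟨x, hx⟩ : ↥(P : Subgroup G))⁻¹ :=
    Subtype.ext hz'
  rw [← this]
  exact hz

end Cfsg.Agent.Lib.Helper50
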