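import Cfsg.Agent.Lib.Helper50.HSub2
import Cfsg.Agent.Lib.Helper50.TateAlperin

set_option autoImplicit false

namespace Cfsg.Agent.Lib.Helper50

open Cfsg Cfsg.Agent.Lib.Lead Cfsg.Agent.Lib.Helper33
open scoped Pointwise

variable {G : Type*} [Group G]

/-- if all `p'`-elements of `N_G(T)` centralize `T`, every element of `N_G(T)` acts on `T` as an element of a
Sylow `p`-subgroup of `N_G(T)`. -/
theorem exists_mem_relSyl_conj_eq [Finite G] {p : ℕ} [Fact p.Prime] {T S : Subgroup G}
    (hS : RelSyl p S (Subgroup.normalizer (T : Set G)))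
    (hc : ∀ y ∈ Subgroup.normalizer (T : Set G), (orderOf y).Coprime p →
      y ∈ Subgroup.centralizer (T : Set G)) {t : G} (ht : t ∈ Subgroup.normalizer (T : Set G)) :
    ∃ s ∈ S, ∀ a ∈ T, t * a * t⁻¹ = s * a * s⁻¹ := by
  set N := Subgroup.normalizer (T : Set G) with hN
  let K : Subgroup N := T.normalizerMonoidHom.ker
  have hKn : K.Normal := inferInstance
  have hKmem : ∀ n : N, n ∈ K ↔ (n : G) ∈ Subgroup.centralizer (T : Set G) := by
    intro n
    show n ∈ T.normalizerMonoidHom.ker ↔ _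
    rw [Subgroup.normalizerMonoidHom_ker, Subgroup.mem_subgroupOf]
  have hres : pResidual p N ≤ K := by
    unfold pResidual
    rw [Subgroup.closure_le]
    intro n hn
    rw [SetLike.mem_coe, hKmem]
    apply hc n n.2
    have : (orderOf n).Coprime p := hn
    rwa [Subgroup.orderOf_coe]
  have hq : IsPGroup p (N ⧸ K) := pResidual_le_iff.mp hres
  have hsup := sylow_sup_eq_top_of_isPGroup_quotient hS.toSylow K hq
  have htm : (⟨t, ht⟩ : N) ∈ ((hS.toSylow : Subgroup N) ⊔ K) := by
    rw [hsup]; exact Subgroup.mem_top _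
  rw [← SetLike.mem_coe, Subgroup.mul_normal] at htm
  obtain ⟨s, hs, k, hk, hsk⟩ := htm
  have hs' : (s : G) ∈ S := by
    have : s ∈ S.subgroupOf N := hs
    exact Subgroup.mem_subgroupOf.mp this
  have hk' : (k : G) ∈ Subgroup.centralizer (T : Set G) := (hKmem k).mp hk
  refine ⟨s, hs', ?_⟩
  intro a ha
  have h1 : t = (s : G) * (k : G) := by
    have := congrArg (fun z : N => (z : G)) hsk
    exact this.symm
  have h2 : (k : G) * a * (k : G)⁻¹ = a := by
    have := (Subgroup.mem_centralizer_iff.mp hk') a ha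
    rw [← this]; group
  calc t * a * t⁻¹ = (s : G) * ((k : G) * a * (k : G)⁻¹) * (s : G)⁻¹ := by rw [h1]; group
    _ = s * a * (s : G)⁻¹ := by rw [h2]

/-- **(F)** the local fusion statement. -/
theorem local_fusion_of_isH [Finite G] {p : ℕ} [Fact p.Prime]
    (hmin : ∀ q : ℕ, q.Prime → q ∣ Nat.card G → p ≤ q) (P : Sylow p G) {d : ℕ} (hd : 1 ≤ d)
    (hdP : p ^ d < Nat.card (P : Subgroup G))
    (hH : ∀ E : Subgroup G, E ≤ (P : Subgroup G) →
      (Nat.card E = p ^ d ∨ (p ^ d = 2 ∧ Nat.card E = 4)) → IsH E)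
    {T : Subgroup G} (hTP : T ≤ (P : Subgroup G))
    (hrel : RelSyl p ((P : Subgroup G) ⊓ Subgroup.normalizer (T : Set G))
      (Subgroup.normalizer (T : Set G)))
    {t : G} (ht : t ∈ Subgroup.normalizer (T : Set G)) {a : G} (ha : a ∈ T) {M : Subgroup G}
    (hMP : M ≤ (P : Subgroup G)) (hM : IsCoatom (M.subgroupOf (P : Subgroup G))) :
    t * a * t⁻¹ * a⁻¹ ∈ M := by
  have hp : p.Prime := Fact.out
  obtain ⟨f1, f2, f3⟩ := coatom_facts P.2 hMP hM
  have hMc : p ^ d ≤ Nat.card M := by
    have h1 := pow_succ_le_card_of_lt P.2 hdP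
    rw [← f3, pow_succ] at h1
    exact Nat.le_of_mul_le_mul_right h1 hp.pos
  by_cases hTc : Nat.card T ≤ p ^ d
  · by_cases hTM : T ≤ M
    · exact M.mul_mem (hTM ((Subgroup.mem_normalizer_iff.mp ht a).mp ha)) (M.inv_mem (hTM ha))
    · have hle : T ⊓ M ≤ T := inf_le_left
      have ht₁ : t ∈ Subgroup.normalizer ((T ⊓ M : Subgroup G) : Set G) := by
        apply mem_normalizer_of_map_conj_le
        rintro _ ⟨x, hx, rfl⟩
        have hxT : t * x * t⁻¹ ∈ T := (Subgroup.mem_normalizer_iff.mp ht x).mp hx.1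
        refine ⟨hxT, ?_⟩
        obtain ⟨E, h1, h2, h3⟩ := exists_subgroup_card_between (P.2.to_le hMP)
          (inf_le_right : T ⊓ M ≤ M) (m := d)
          ((Subgroup.card_le_of_le inf_le_left).trans hTc) hMc
        have hE : IsH E := hH E (h2.trans hMP) (Or.inl h3)
        have hPE := hE.le_normalizer P.2 (h2.trans hMP)
        exact h2 (hE.conj_mem hPE (h1 hx) (hTP hxT))
      have hn : T ≤ Subgroup.normalizer ((T ⊓ M : Subgroup G) : Set G) :=
        (le_inf Subgroup.le_normalizer (hTP.trans f1)).trans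
          Subgroup.inf_normalizer_le_normalizer_inf
      have hidx : (T ⊓ M).relIndex T = p := by
        rw [Subgroup.inf_relIndex_left]
        have hnorm : (M.subgroupOf (P : Subgroup G)).Normal :=
          (Subgroup.normal_subgroupOf_iff_le_normalizer hMP).mpr f1
        have h1 : (M.subgroupOf (P : Subgroup G)).relIndex (T.subgroupOf (P : Subgroup G)) ∣
            (M.subgroupOf (P : Subgroup G)).index := Subgroup.relIndex_dvd_index_of_normal _ _
        rw [Subgroup.relIndex_subgroupOf hTP] at h1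
        have h2 : (M.subgroupOf (P : Subgroup G)).index = p := f2
        rw [h2] at h1
        rcases (Nat.dvd_prime hp).mp h1 with h3 | h3
        · exact absurd (Subgroup.relIndex_eq_one.mp h3) hTM
        · exact h3
      exact (conj_mul_inv_mem_of_relIndex_eq hmin hle hn hidx ht ht₁ ha).2
  · push Not at hTc
    obtain ⟨s, hs, hsa⟩ := exists_mem_relSyl_conj_eq hrel
      (fun y hy hcop => mem_centralizer_of_card_gt hmin P.2 hd hH hTP hTc hy hcop) ht
    rw [hsa a ha]
    exact conj_mul_inv_mem_of_relIndex_eq hmin hMP f1 f2 (Subgroup.le_normalizer hs.1) (f1 hs.1)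
      (hTP ha)

/-- **Guo–Wei**: let `p` be the smallest prime divisor of `|G|` and `P` a Sylow `p`-subgroup all of whose
subgroups of order `p ^ d` (`1 ≤ d`, `p ^ d < |P|`), and of order `4` if `p ^ d = 2`, are `ℋ`-subgroups of `G`.
Then `G` has a normal `p`-complement. -/
theorem hasNormalPComplement_of_isH [Finite G] {p : ℕ} [Fact p.Prime]
    (hmin : ∀ q : ℕ, q.Prime → q ∣ Nat.card G → p ≤ q) (P : Sylow p G) {d : ℕ} (hd : 1 ≤ d)
    (hdP : p ^ d < Nat.card (P : Subgroup G))
    (hH : ∀ E : Subgroup G, E ≤ (P : Subgroup G) →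
      (Nat.card E = p ^ d ∨ (p ^ d = 2 ∧ Nat.card E = 4)) → IsH E) :
    HasNormalPComplement p G := by
  apply hasNormalPComplement_of_local_fusion P
  intro T hTP hrel t ht a ha M hMP hM
  exact local_fusion_of_isH hmin P hd hdP hH hTP hrel ht ha hMP hM

end Cfsg.Agent.Lib.Helper50
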