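import Cfsg.Agent.Lib.Helper50.HSub3
import Cfsg.Agent.Lib.Helper50.HQuot
import Cfsg.Agent.Lib.Helper50.NormalOrder2

set_option autoImplicit false

namespace Cfsg.Agent.Lib.Helper50

open Cfsg Cfsg.Agent.Lib.Helper9 Cfsg.Agent.Lib.Helper33

variable {G : Type*} [Group G]

/-- the `ℋ`-property descends to subgroups. -/
theorem IsH.of_map_subtype [Finite G] {E : Subgroup G} {F : Subgroup E}
    (h : IsH (F.map E.subtype)) : IsH F := by
  rintro g x ⟨⟨f, hf, rfl⟩, hx2⟩
  have h1 : ((MulAut.conj g).toMonoidHom f : E).1 ∈ F.map E.subtype := by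
    apply h (g : G)
    refine ⟨⟨f, ⟨f, hf, rfl⟩, by simp⟩, ?_⟩
    apply mem_normalizer_of_map_conj_le
    rintro _ ⟨_, ⟨z, hz, rfl⟩, rfl⟩
    exact ⟨_, (Subgroup.mem_normalizer_iff.mp hx2 z).mp hz, by simp [mul_assoc]⟩
  obtain ⟨y, hy, hy'⟩ := h1
  have : y = (MulAut.conj g).toMonoidHom f := Subtype.ext hy'
  rw [← this]
  exact hy

/-- the hypothesis on the Sylow `p`-subgroups of `E`. -/
def HHyp (p : ℕ) (E : Subgroup G) : Prop :=
  ∀ P : Subgroup G, P ≤ E → IsPGroup p P → ¬ p ∣ P.relIndex E →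
    IsCyclic P ∨ ∃ d : ℕ, 1 ≤ d ∧ p ^ d < Nat.card P ∧ ∀ F : Subgroup G, F ≤ P →
      (Nat.card F = p ^ d ∨ (p ^ d = 2 ∧ Nat.card F = 4)) → IsH F

/-- under `HHyp` for the smallest prime divisor `p` of `|E|`, the normal subgroup `E` has a normal `p`-complement,
which is normal in `G`. -/
theorem exists_normal_complement_subgroup [Finite G] {p : ℕ} [Fact p.Prime] (E : Subgroup G)
    [hEn : E.Normal] (hdiv : p ∣ Nat.card E)
    (hmin : ∀ q : ℕ, q.Prime → q ∣ Nat.card E → p ≤ q) (h : HHyp p E) :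
    ∃ K : Subgroup G, K.Normal ∧ K ≤ E ∧ (Nat.card K).Coprime p ∧ ∃ a : ℕ, K.relIndex E = p ^ a := by
  have hp : p.Prime := Fact.out
  let P' : Sylow p E := Classical.arbitrary _
  obtain ⟨h1, h2, h3⟩ := relSyl_of_sylow P'
  have hcompl : HasNormalPComplement p E := by
    rcases h _ h1 h2 h3 with hcyc | ⟨d, hd, hdP, hH⟩
    · have hne : Nat.card E ≠ 1 := by
        intro h1
        rw [h1] at hdiv
        exact hp.one_lt.ne' (Nat.dvd_one.mp hdiv)
      have hmf : (Nat.card E).minFac = p := by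
        apply le_antisymm
        · exact Nat.minFac_le_of_dvd hp.two_le hdiv
        · exact hmin _ (Nat.minFac_prime hne) (Nat.minFac_dvd _)
      have hcyc' : IsCyclic (P' : Subgroup E) :=
        isCyclic_of_surjective
          ((P' : Subgroup E).equivMapOfInjective E.subtype E.subtype_injective).symm
          ((P' : Subgroup E).equivMapOfInjective E.subtype E.subtype_injective).symm.surjective
      exact ⟨P', _, inferInstance, IsCyclic.isComplement' hmf hcyc'⟩
    · apply hasNormalPComplement_of_isH hmin P' hd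
        (by rwa [Subgroup.card_map_of_injective E.subtype_injective] at hdP)
      intro F hF hc
      apply IsH.of_map_subtype
      apply hH _ (Subgroup.map_mono hF)
      rwa [Subgroup.card_map_of_injective E.subtype_injective]
  obtain ⟨P₁, N, hNn, hNc⟩ := hcompl
  obtain ⟨a, ha⟩ := P₁.2.exists_card_eq
  have hNidx : N.index = p ^ a := by rw [hNc.symm.index_eq_card, ha]
  have hNcop : (Nat.card N).Coprime p := by
    rw [← hNc.index_eq_card]
    exact ((Nat.Prime.coprime_iff_not_dvd hp).mpr P₁.not_dvd_index).symm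
  refine ⟨N.map E.subtype, ?_, Subgroup.map_subtype_le N, ?_, a, ?_⟩
  · constructor
    rintro _ ⟨n, hn, rfl⟩ g
    let e : E := ⟨g * n * g⁻¹, hEn.conj_mem n n.2 g⟩
    have ho : orderOf e = orderOf n := by
      rw [← Subgroup.orderOf_coe e, ← Subgroup.orderOf_coe n]
      exact orderOf_injective (MulAut.conj g).toMonoidHom (MulAut.conj g).injective (n : G)
    have he : QuotientGroup.mk' N e = 1 := by
      apply map_eq_one_of_coprime
      rw [ho, ← Subgroup.index_eq_card, hNidx]
      apply Nat.Coprime.pow_right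
      exact Nat.Coprime.coprime_dvd_left (Subgroup.orderOf_dvd_natCard N hn) hNcop
    rw [QuotientGroup.mk'_apply, QuotientGroup.eq_one_iff] at he
    exact ⟨e, he, rfl⟩
  · rwa [Subgroup.card_map_of_injective E.subtype_injective]
  · rw [Subgroup.relIndex, Subgroup.subgroupOf,
      Subgroup.comap_map_eq_self_of_injective E.subtype_injective, hNidx]

end Cfsg.Agent.Lib.Helper50
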