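import Cfsg.Agent.Lib.Helper50.HTower

set_option autoImplicit false

namespace Cfsg.Agent.Lib.Helper50

open Cfsg Cfsg.Agent.Lib.Helper9 Cfsg.Agent.Lib.Helper33

variable {G : Type*} [Group G]

/-- the order of the image of a subgroup meeting the kernel trivially. -/
theorem card_map_mk'_of_inf_eq_bot (K : Subgroup G) [K.Normal] {X : Subgroup G} (h : K ⊓ X = ⊥) :
    Nat.card (X.map (QuotientGroup.mk' K)) = Nat.card X := by
  rw [← Subgroup.relIndex_ker, QuotientGroup.ker_mk', ← Subgroup.inf_relIndex_right, h,
    Subgroup.relIndex_bot_left]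

/-- the quotient by the normal `p`-complement of `E` is supersolvable. -/
theorem isSupersolvable_quotient_of_complement [Finite G] {p : ℕ} [Fact p.Prime]
    (E K : Subgroup G) [E.Normal] [K.Normal] (hKE : K ≤ E) (hKc : (Nat.card K).Coprime p) {a : ℕ}
    (hidx : K.relIndex E = p ^ a) (hss : IsSupersolvable (G ⧸ E)) (h : HHyp p E) :
    IsSupersolvable (G ⧸ K) := by
  have hp : p.Prime := Fact.out
  set π := QuotientGroup.mk' K with hπ
  have hπs : Function.Surjective π := QuotientGroup.mk'_surjective K
  have i1 : (E.map π).Normal := Subgroup.Normal.map inferInstance _ hπs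
  have hEc : Nat.card (E.map π) = p ^ a := by
    rw [← Subgroup.relIndex_ker, hπ, QuotientGroup.ker_mk', hidx]
  have hEp : IsPGroup p (E.map π) := IsPGroup.of_card hEc
  have hss' : IsSupersolvable ((G ⧸ K) ⧸ E.map π) :=
    isSupersolvable_of_mulEquiv (QuotientGroup.quotientQuotientEquivQuotient K E hKE).symm hss
  apply isSupersolvable_of_normal_pgroup_isH (E.map π) hEp hss'
  obtain ⟨P, hPE, hPp, hPi⟩ := exists_relSyl (p := p) E
  obtain ⟨b, hb⟩ := hPp.exists_card_eq
  have hcE1 : p ^ a * Nat.card K = Nat.card E := by rw [← hidx]; exact relIndex_mul_card hKE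
  have hcE2 : P.relIndex E * p ^ b = Nat.card E := by rw [← hb]; exact relIndex_mul_card hPE
  have hab : p ^ b = p ^ a := by
    apply Nat.dvd_antisymm
    · have h1 : p ^ b ∣ p ^ a * Nat.card K := by rw [hcE1, ← hcE2]; exact dvd_mul_left _ _
      exact (Nat.Coprime.pow_left b hKc.symm).dvd_of_dvd_mul_right h1
    · have h1 : p ^ a ∣ P.relIndex E * p ^ b := by rw [hcE2, ← hcE1]; exact dvd_mul_right _ _
      exact (Nat.Coprime.pow_left a ((Nat.Prime.coprime_iff_not_dvd hp).mpr hPi)).dvd_of_dvd_mul_left
        h1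
  have hKP : K ⊓ P = ⊥ := by
    apply Disjoint.eq_bot
    apply Subgroup.disjoint_of_coprime_natCard
    rw [hb]
    exact Nat.Coprime.pow_right b hKc
  have hKX : ∀ X : Subgroup G, X ≤ P → K ⊓ X = ⊥ := by
    intro X hX
    exact le_bot_iff.mp ((inf_le_inf_left K hX).trans hKP.le)
  have hPE' : P.map π = E.map π := by
    apply Subgroup.eq_of_le_of_card_ge (Subgroup.map_mono hPE)
    rw [hEc, card_map_mk'_of_inf_eq_bot K hKP, hb, hab]
  rcases h P hPE hPp hPi with hcyc | ⟨d, hd, hdP, hH⟩
  · left
    rw [← hPE']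
    exact isCyclic_of_surjective (π.subgroupMap P) (π.subgroupMap_surjective P)
  · right
    refine ⟨d, hd, by rw [hEc, ← hab, ← hb]; exact hdP, ?_⟩
    intro Fb hFb hFc
    let F : Subgroup G := Fb.comap π ⊓ P
    have hFP : F ≤ P := inf_le_right
    have hFm : F.map π = Fb := by
      apply le_antisymm
      · rintro _ ⟨z, hz, rfl⟩
        exact hz.1
      · intro y hy
        have : y ∈ P.map π := by rw [hPE']; exact hFb hy
        obtain ⟨z, hz, rfl⟩ := this
        exact ⟨z, ⟨hy, hz⟩, rfl⟩
    have hFcard : Nat.card F = Nat.card Fb := by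
      rw [← hFm, card_map_mk'_of_inf_eq_bot K (hKX F hFP)]
    rw [← hFm]
    exact (hH F hFP (by rw [hFcard]; exact hFc)).map_mk' (hPp.to_le hFP) K

/-- **Guo–Wei, supersolvability.** -/
theorem isSupersolvable_of_hHyp [Finite G] (E : Subgroup G) [E.Normal]
    (hss : IsSupersolvable (G ⧸ E)) (h : ∀ p : ℕ, p.Prime → HHyp p E) : IsSupersolvable G := by
  induction hn : Nat.card E using Nat.strong_induction_on generalizing E with
  | _ n ih =>
    by_cases hEb : Nat.card E = 1
    · have : IsCyclic E := by
        have : Subsingleton E := (Nat.card_eq_one_iff_unique.mp hEb).1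
        infer_instance
      exact isSupersolvable_of_cyclic_normal E hss
    · set p := (Nat.card E).minFac with hpdef
      have hp : p.Prime := Nat.minFac_prime hEb
      have : Fact p.Prime := ⟨hp⟩
      have hdiv : p ∣ Nat.card E := Nat.minFac_dvd _
      have hmin : ∀ q : ℕ, q.Prime → q ∣ Nat.card E → p ≤ q :=
        fun q hq hqd => Nat.minFac_le_of_dvd hq.two_le hqd
      obtain ⟨K, hKn, hKE, hKc, a, ha⟩ := exists_normal_complement_subgroup E hdiv hmin (h p hp)
      have hssK := isSupersolvable_quotient_of_complement E K hKE hKc ha hss (h p hp)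
      have hlt : Nat.card K < Nat.card E := by
        apply lt_of_le_of_ne (Subgroup.card_le_of_le hKE)
        intro heq
        rw [← heq] at hdiv
        exact hp.one_lt.ne' (hKc.symm.eq_one_of_dvd hdiv)
      refine ih (Nat.card K) (by rw [← hn]; exact hlt) K hssK ?_ rfl
      intro r hr R hRK hRr hRi
      by_cases hrp : r = p
      · left
        subst hrp
        obtain ⟨b, hb⟩ := hRr.exists_card_eq
        have h1 : Nat.card R ∣ Nat.card K := Subgroup.card_dvd_of_le hRK
        have h2 : Nat.card R = 1 := by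
          refine Nat.Coprime.eq_one_of_dvd ?_ h1
          rw [hb]
          exact Nat.Coprime.pow_left b hKc.symm
        have : Subsingleton R := (Nat.card_eq_one_iff_unique.mp h2).1
        infer_instance
      · apply h r hr R (hRK.trans hKE) hRr
        rw [← Subgroup.relIndex_mul_relIndex R K E hRK hKE, ha]
        intro hdvd
        rcases (Nat.Prime.dvd_mul hr).mp hdvd with h1 | h1
        · exact hRi h1
        · exact hrp ((Nat.prime_dvd_prime_iff_eq hr hp).mp (hr.dvd_of_dvd_pow h1))

end Cfsg.Agent.Lib.Helper50
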