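import Cfsg.Agent.Lib.Helper50.TateLift

set_option autoImplicit false

namespace Cfsg.Agent.Lib.Helper50

open Cfsg Cfsg.Agent.Lib.Lead

/-- In a nilpotent group, a subgroup `N ≤ [N, ⊤]` is trivial. -/
theorem eq_bot_of_le_commutator_top {P : Type*} [Group P] (hP : Group.IsNilpotent P)
    {N : Subgroup P} (h : N ≤ ⁅N, (⊤ : Subgroup P)⁆) : N = ⊥ := by
  obtain ⟨n, hn⟩ := Subgroup.nilpotent_iff_lowerCentralSeries.mp hP
  have : ∀ k, N ≤ (⊤ : Subgroup P).lowerCentralSeries k := by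
    intro k
    induction k with
    | zero => simp
    | succ k ih =>
      rw [Subgroup.lowerCentralSeries_succ]
      exact h.trans (Subgroup.commutator_mono ih le_rfl)
  rw [eq_bot_iff, ← hn]
  exact this n

/-- a Sylow `p`-subgroup covers every `p`-quotient. -/
theorem sylow_sup_eq_top_of_isPGroup_quotient {G : Type*} [Group G] [Finite G] {p : ℕ}
    [Fact p.Prime] (P : Sylow p G) (K : Subgroup G) [K.Normal] (hK : IsPGroup p (G ⧸ K)) :
    (P : Subgroup G) ⊔ K = ⊤ := by
  have hp : p.Prime := Fact.out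
  rw [← Subgroup.index_eq_one]
  have h1 : ((P : Subgroup G) ⊔ K).index ∣ (P : Subgroup G).index :=
    Subgroup.index_dvd_of_le le_sup_left
  have h2 : ((P : Subgroup G) ⊔ K).index ∣ K.index := Subgroup.index_dvd_of_le le_sup_right
  obtain ⟨n, hn⟩ := hK.exists_card_eq
  rw [Subgroup.index_eq_card K, hn] at h2
  obtain ⟨k, _, hk⟩ := (Nat.dvd_prime_pow hp).mp h2
  rw [hk] at h1 ⊢
  rcases Nat.eq_zero_or_pos k with rfl | hk0
  · rfl
  · exfalso
    exact P.not_dvd_index ((dvd_pow_self p hk0.ne').trans h1)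

/-- **Tate's theorem** (special form): if `P ∩ O^p(G) ≤ Φ(P)` for a Sylow `p`-subgroup `P`, then
`P ∩ O^p(G) = 1`. -/
theorem tate_inf_pResidual_eq_bot {G : Type*} [Group G] [Finite G] {p : ℕ} [Fact p.Prime]
    (P : Sylow p G)
    (h : (pResidual p G).subgroupOf (P : Subgroup G) ≤ frattini ↥(P : Subgroup G)) :
    (pResidual p G).subgroupOf (P : Subgroup G) = ⊥ := by
  set K := pResidual p G with hK
  set H : Subgroup ↥(P : Subgroup G) := K.subgroupOf (P : Subgroup G) with hH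
  have hHn : H.Normal := inferInstance
  set H₁ : Subgroup ↥(P : Subgroup G) := ⁅H, (⊤ : Subgroup ↥(P : Subgroup G))⁆ with hH₁
  have hH₁n : H₁.Normal := inferInstance
  have hH₁H : H₁ ≤ H := Subgroup.commutator_le_left H ⊤
  have hPnil : Group.IsNilpotent ↥(P : Subgroup G) := P.2.isNilpotent
  apply eq_bot_of_le_commutator_top hPnil
  -- the central extension
  let π : G →* G ⧸ K := QuotientGroup.mk' K
  let q : (↥(P : Subgroup G) ⧸ H₁) →* G ⧸ K :=
    QuotientGroup.lift H₁ (π.comp (P : Subgroup G).subtype) (by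
      intro x hx
      have : (x : G) ∈ K := hH₁H hx
      exact (QuotientGroup.eq_one_iff _).mpr this)
  have hqmk : ∀ u : ↥(P : Subgroup G), q (QuotientGroup.mk' H₁ u) = π u := fun u => rfl
  have hKq : IsPGroup p (G ⧸ K) := isPGroup_quotient_pResidual
  have hsup := sylow_sup_eq_top_of_isPGroup_quotient P K hKq
  have hqs : Function.Surjective q := by
    intro x
    obtain ⟨g, rfl⟩ := QuotientGroup.mk'_surjective K x
    have hg : g ∈ (P : Subgroup G) ⊔ K := by rw [hsup]; exact Subgroup.mem_top g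
    rw [← SetLike.mem_coe, Subgroup.mul_normal] at hg
    obtain ⟨u, hu, k, hk, rfl⟩ := hg
    refine ⟨QuotientGroup.mk' H₁ ⟨u, hu⟩, ?_⟩
    rw [hqmk]
    show π u = π (u * k)
    have hk1 : π k = 1 := (QuotientGroup.eq_one_iff k).mpr hk
    rw [map_mul, hk1, mul_one]
  have hkermem : ∀ u : ↥(P : Subgroup G), QuotientGroup.mk' H₁ u ∈ q.ker ↔ u ∈ H := by
    intro u
    rw [MonoidHom.mem_ker, hqmk]
    exact QuotientGroup.eq_one_iff _
  have hker : q.ker ≤ Subgroup.center (↥(P : Subgroup G) ⧸ H₁) := by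
    intro x hx
    obtain ⟨u, rfl⟩ := QuotientGroup.mk'_surjective H₁ x
    rw [hkermem] at hx
    rw [Subgroup.mem_center_iff]
    intro y
    obtain ⟨v, rfl⟩ := QuotientGroup.mk'_surjective H₁ y
    rw [← map_mul, ← map_mul]
    apply QuotientGroup.eq.mpr
    have h1 : u * v * u⁻¹ * v⁻¹ ∈ H₁ :=
      Subgroup.commutator_mem_commutator hx (Subgroup.mem_top v)
    have h2 : (v * u)⁻¹ * (u * v) = v⁻¹ * (u⁻¹ * (u * v * u⁻¹ * v⁻¹) * u) * v := by group
    rw [h2]
    have h3 : u⁻¹ * (u * v * u⁻¹ * v⁻¹) * u ∈ H₁ := by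
      have := hH₁n.conj_mem _ h1 u⁻¹
      simpa using this
    have := hH₁n.conj_mem _ h3 v⁻¹
    simpa using this
  have hΓ₁ : IsPGroup p (↥(P : Subgroup G) ⧸ H₁) := P.2.to_quotient H₁
  obtain ⟨φ, hφ⟩ := exists_lift_of_not_dvd_index hΓ₁ (P : Subgroup G) P.not_dvd_index q hqs hker π
    (QuotientGroup.mk' H₁) hqmk
  -- `K ≤ ker φ`
  have hKφ : K ≤ φ.ker := by
    apply pResidual_le_of_isPGroup_quotient
    exact hΓ₁.of_injective (QuotientGroup.kerLift φ) (QuotientGroup.kerLift_injective φ)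
  -- `φ` is onto
  have hkerfr : q.ker ≤ frattini (↥(P : Subgroup G) ⧸ H₁) := by
    intro x hx
    obtain ⟨u, rfl⟩ := QuotientGroup.mk'_surjective H₁ x
    rw [hkermem] at hx
    exact frattini_le_comap_frattini_of_surjective (QuotientGroup.mk'_surjective H₁) (h hx)
  have hrange : φ.range = ⊤ := by
    apply frattini_nongenerating
    rw [eq_top_iff]
    intro v _
    obtain ⟨g, hg⟩ := QuotientGroup.mk'_surjective K (q v)
    have h1 : (φ g)⁻¹ * v ∈ q.ker := by
      rw [MonoidHom.mem_ker, map_mul, map_inv, hφ, ← hg]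
      exact inv_mul_cancel _
    have h2 : v = φ g * ((φ g)⁻¹ * v) := by group
    rw [h2]
    exact Subgroup.mul_mem _ (Subgroup.mem_sup_left ⟨g, rfl⟩) (Subgroup.mem_sup_right (hkerfr h1))
  -- hence `ker q` is trivial
  intro u hu
  have h1 : QuotientGroup.mk' H₁ u ∈ q.ker := (hkermem u).mpr hu
  obtain ⟨g, hg⟩ : QuotientGroup.mk' H₁ u ∈ φ.range := by rw [hrange]; exact Subgroup.mem_top _
  have h2 : π g = 1 := by
    rw [← hφ, hg]; exact h1
  have h3 : g ∈ K := (QuotientGroup.eq_one_iff g).mp h2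
  have h4 : φ g = 1 := hKφ h3
  rw [h4] at hg
  exact (QuotientGroup.eq_one_iff u).mp hg.symm

/-- **Tate's theorem**: if `P ∩ O^p(G) ≤ Φ(P)` then `G` has a normal `p`-complement. -/
theorem hasNormalPComplement_of_pResidual_le_frattini {G : Type*} [Group G] [Finite G] {p : ℕ}
    [Fact p.Prime] (P : Sylow p G)
    (h : (pResidual p G).subgroupOf (P : Subgroup G) ≤ frattini ↥(P : Subgroup G)) :
    HasNormalPComplement p G := by
  have hp : p.Prime := Fact.out
  rw [hasNormalPComplement_iff_card_pResidual]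
  have h1 := tate_inf_pResidual_eq_bot P h
  -- a `p`-element of `O^p(G)` would be conjugate into `P`
  rw [Nat.coprime_comm, Nat.Prime.coprime_iff_not_dvd hp]
  intro hd
  obtain ⟨x, hx⟩ := exists_prime_orderOf_dvd_card' p hd
  have hxp : IsPGroup p (Subgroup.zpowers (x : G)) := by
    apply IsPGroup.of_card (n := 1)
    rw [Nat.card_zpowers, Subgroup.orderOf_coe, hx, pow_one]
  obtain ⟨Q, hQ⟩ := hxp.exists_le_sylow
  obtain ⟨g, hg⟩ := MulAction.exists_smul_eq G Q P
  have hxQ : (x : G) ∈ (Q : Subgroup G) := hQ (Subgroup.mem_zpowers _)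
  have hgx : g * x * g⁻¹ ∈ (P : Subgroup G) := by
    rw [← hg, Sylow.coe_subgroup_smul]
    have := Subgroup.smul_mem_pointwise_smul (x : G) (MulAut.conj g) (Q : Subgroup G) hxQ
    simpa using this
  have hgK : g * x * g⁻¹ ∈ pResidual p G :=
    (inferInstance : (pResidual p G).Normal).conj_mem _ x.2 g
  have h2 : (⟨g * x * g⁻¹, hgx⟩ : ↥(P : Subgroup G)) ∈
      (pResidual p G).subgroupOf (P : Subgroup G) := hgK
  rw [h1, Subgroup.mem_bot] at h2
  have h3 : g * x * g⁻¹ = 1 := congrArg Subtype.val h2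
  have h4 : (x : G) = 1 := by
    have : (x : G) = g⁻¹ * (g * x * g⁻¹) * g := by group
    rw [this, h3]; group
  have h5 : x = 1 := Subtype.ext h4
  rw [h5, orderOf_one] at hx
  exact hp.one_lt.ne hx

end Cfsg.Agent.Lib.Helper50
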