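import Cfsg.Agent.Lib.Helper50.Tate
import Cfsg.Agent.Lib.Helper1.Frattini

set_option autoImplicit false

namespace Cfsg.Agent.Lib.Helper50

open Cfsg Cfsg.Agent.Lib.Lead

open scoped IsMulCommutative in
/-- If the fusion in a Sylow `p`-subgroup `P` is trivial modulo every maximal subgroup of `P`, then
`P ∩ O^p(G) ≤ Φ(P)`. -/
theorem pResidual_subgroupOf_le_frattini_of_fusion {G : Type*} [Group G] [Finite G] {p : ℕ}
    [Fact p.Prime] (P : Sylow p G)
    (hfus : ∀ M : Subgroup ↥(P : Subgroup G), IsCoatom M → ∀ (x : G) (hx : x ∈ (P : Subgroup G))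
      (g : G) (hg : g * x * g⁻¹ ∈ (P : Subgroup G)),
      (⟨g * x * g⁻¹, hg⟩ : ↥(P : Subgroup G)) * (⟨x, hx⟩ : ↥(P : Subgroup G))⁻¹ ∈ M) :
    (pResidual p G).subgroupOf (P : Subgroup G) ≤ frattini ↥(P : Subgroup G) := by
  have hp : p.Prime := Fact.out
  rw [Cfsg.Agent.Lib.Helper1.le_frattini_iff]
  intro M hM
  have hMn : M.Normal := Cfsg.Agent.Lib.Helper1.IsPGroup.normal_of_isCoatom P.2 hM
  have hMi : M.index = p := Cfsg.Agent.Lib.Helper1.IsPGroup.index_of_isCoatom P.2 hM
  have hcard : Nat.card (↥(P : Subgroup G) ⧸ M) = p := by rw [← Subgroup.index_eq_card, hMi]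
  have hcyc : IsCyclic (↥(P : Subgroup G) ⧸ M) := isCyclic_of_prime_card hcard
  have hab : IsMulCommutative (↥(P : Subgroup G) ⧸ M) := hcyc.isMulCommutative
  let V : G →* ↥(P : Subgroup G) ⧸ M := MonoidHom.transfer (QuotientGroup.mk' M)
  have key : ∀ (x : G) (hx : x ∈ (P : Subgroup G)),
      V x = (QuotientGroup.mk' M ⟨x, hx⟩) ^ (P : Subgroup G).index := by
    intro x hx
    have : Fintype (Quotient (MulAction.orbitRel (Subgroup.zpowers (x : G))
      (G ⧸ (P : Subgroup G)))) := Fintype.ofFinite _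
    rw [Subgroup.index_eq_sum_minimalPeriod (P : Subgroup G) x, ← Finset.prod_pow_eq_pow_sum]
    show MonoidHom.transfer (QuotientGroup.mk' M) x = _
    rw [MonoidHom.transfer_eq_prod_quotient_orbitRel_zpowers_quot]
    apply Finset.prod_congr rfl
    intro q _
    rw [← map_pow]
    have hxk : x ^ Function.minimalPeriod (x • ·) q.out ∈ (P : Subgroup G) :=
      Subgroup.pow_mem _ hx _
    have hmem := QuotientGroup.out_conj_pow_minimalPeriod_mem (P : Subgroup G) x q.out
    have hmem' : (q.out.out)⁻¹ * x ^ Function.minimalPeriod (x • ·) q.out * ((q.out.out)⁻¹)⁻¹ ∈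
        (P : Subgroup G) := by rw [inv_inv]; exact hmem
    have h1 := hfus M hM _ hxk (q.out.out)⁻¹ hmem'
    symm
    apply QuotientGroup.eq.mpr
    have h2 := hMn.conj_mem _ h1
      (⟨x ^ Function.minimalPeriod (x • ·) q.out, hxk⟩ : ↥(P : Subgroup G))⁻¹
    convert h2 using 1
    apply Subtype.ext
    simp only [Subgroup.coe_mul, Subgroup.coe_inv, Subgroup.coe_pow, inv_inv]
    group
  have hKV : pResidual p G ≤ V.ker := by
    apply pResidual_le_of_isPGroup_quotient
    exact (P.2.to_quotient M).of_injective (QuotientGroup.kerLift V)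
      (QuotientGroup.kerLift_injective V)
  intro x hx
  have h1 : V (x : G) = 1 := hKV hx
  rw [key x x.2] at h1
  have hQ : IsPGroup p (↥(P : Subgroup G) ⧸ M) := P.2.to_quotient M
  have h3 : QuotientGroup.mk' M ⟨x, x.2⟩ = 1 := by
    apply (hQ.powEquiv' P.not_dvd_index).injective
    simpa using h1
  exact (QuotientGroup.eq_one_iff _).1 h3

end Cfsg.Agent.Lib.Helper50
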