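import Mathlib
import Cfsg.Agent.Lib.Lead.Residual

set_option autoImplicit false

namespace Cfsg.Agent.Lib.Helper50

open Cfsg Cfsg.Agent.Lib.Lead

section Lift

variable {G Γ Γ₁ : Type*} [Group G] [Group Γ] [Group Γ₁]

/-- the pullback of two homomorphisms, as a subgroup of the product. -/
def pullbackSubgroup (π : G →* Γ) (q : Γ₁ →* Γ) : Subgroup (G × Γ₁) :=
  (π.comp (MonoidHom.fst G Γ₁)).eqLocus (q.comp (MonoidHom.snd G Γ₁))

theorem mem_pullbackSubgroup {π : G →* Γ} {q : Γ₁ →* Γ} {x : G × Γ₁} :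
    x ∈ pullbackSubgroup π q ↔ π x.1 = q x.2 := Iff.rfl

open scoped IsMulCommutative in
/-- **Lifting through a central extension** (a form of Gaschütz's theorem): a homomorphism `π : G → Γ` lifts
through a surjection `q : Γ₁ → Γ` of a finite `p`-group with central kernel as soon as its restriction to a
subgroup `P` of index prime to `p` does. -/
theorem exists_lift_of_not_dvd_index [Finite G] [Finite Γ₁] {p : ℕ} [Fact p.Prime]
    (hΓ₁ : IsPGroup p Γ₁) (P : Subgroup G) (hP : ¬ p ∣ P.index) (q : Γ₁ →* Γ)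
    (hq : Function.Surjective q) (hker : q.ker ≤ Subgroup.center Γ₁) (π : G →* Γ) (ι : P →* Γ₁)
    (hι : ∀ u : P, q (ι u) = π u) : ∃ φ : G →* Γ₁, ∀ g, q (φ g) = π g := by
  classical
  let E : Subgroup (G × Γ₁) := pullbackSubgroup π q
  let f : E →* G := (MonoidHom.fst G Γ₁).comp E.subtype
  have hf : Function.Surjective f := by
    intro g
    obtain ⟨v, hv⟩ := hq (π g)
    exact ⟨⟨(g, v), hv.symm⟩, rfl⟩
  let PE : Subgroup E := P.comap f
  have hidx : PE.index = P.index := Subgroup.index_comap_of_surjective P hf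
  have hcomm : IsMulCommutative q.ker :=
    ⟨⟨fun a b => Subtype.ext ((Subgroup.mem_center_iff.mp (hker a.2) b).symm)⟩⟩
  have hcen : ∀ (a : Γ₁), a ∈ q.ker → ∀ b : Γ₁, a * b = b * a := fun a ha b =>
    ((Subgroup.mem_center_iff.mp (hker ha) b)).symm
  have hmem : ∀ x : PE, (ι ⟨x.1.1.1, x.2⟩)⁻¹ * x.1.1.2 ∈ q.ker := by
    intro x
    rw [MonoidHom.mem_ker, map_mul, map_inv, hι]
    have : π x.1.1.1 = q x.1.1.2 := x.1.2
    rw [← this]
    exact inv_mul_cancel _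
  let ρ : PE →* q.ker :=
    { toFun := fun x => ⟨(ι ⟨x.1.1.1, x.2⟩)⁻¹ * x.1.1.2, hmem x⟩
      map_one' := by
        apply Subtype.ext
        show (ι ⟨(1 : G), _⟩)⁻¹ * (1 : Γ₁) = 1
        have : (⟨(1 : G), P.one_mem⟩ : P) = 1 := rfl
        rw [this, map_one, inv_one, one_mul]
      map_mul' := by
        intro x y
        apply Subtype.ext
        show (ι ⟨x.1.1.1 * y.1.1.1, _⟩)⁻¹ * (x.1.1.2 * y.1.1.2) =
          ((ι ⟨x.1.1.1, x.2⟩)⁻¹ * x.1.1.2) * ((ι ⟨y.1.1.1, y.2⟩)⁻¹ * y.1.1.2)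
        have h1 : (⟨x.1.1.1 * y.1.1.1, P.mul_mem x.2 y.2⟩ : P) =
            ⟨x.1.1.1, x.2⟩ * ⟨y.1.1.1, y.2⟩ := rfl
        rw [h1, map_mul, mul_inv_rev]
        have h2 := hcen _ (hmem x) (ι ⟨y.1.1.1, y.2⟩)⁻¹
        calc (ι ⟨y.1.1.1, y.2⟩)⁻¹ * (ι ⟨x.1.1.1, x.2⟩)⁻¹ * (x.1.1.2 * y.1.1.2)
            = ((ι ⟨y.1.1.1, y.2⟩)⁻¹ * ((ι ⟨x.1.1.1, x.2⟩)⁻¹ * x.1.1.2)) * y.1.1.2 := by
              simp only [mul_assoc]
          _ = (((ι ⟨x.1.1.1, x.2⟩)⁻¹ * x.1.1.2) * (ι ⟨y.1.1.1, y.2⟩)⁻¹) * y.1.1.2 := by rw [h2]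
          _ = _ := by simp only [mul_assoc] }
  have hρ1 : ∀ x : PE, x.1.1.1 = 1 → ((ρ x : q.ker) : Γ₁) = x.1.1.2 := by
    intro x hx
    show (ι ⟨x.1.1.1, x.2⟩)⁻¹ * x.1.1.2 = x.1.1.2
    have : (⟨x.1.1.1, x.2⟩ : P) = 1 := Subtype.ext hx
    rw [this, map_one, inv_one, one_mul]
  let τ : E →* q.ker := MonoidHom.transfer ρ
  -- the central elements `(1, a)`
  let j : q.ker → E := fun a => ⟨(1, a.1), by
    show π 1 = q a.1
    rw [map_one, MonoidHom.mem_ker.mp a.2]⟩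
  have hjpow : ∀ (a : q.ker) (k : ℕ), (j a) ^ k = j (a ^ k) := by
    intro a k
    apply Subtype.ext
    apply Prod.ext
    · simp [j]
    · simp [j]
  have hjc : ∀ (a : q.ker) (x : E), x⁻¹ * j a * x = j a := by
    intro a x
    apply Subtype.ext
    apply Prod.ext
    · simp [j]
    · show (x.1.2)⁻¹ * a.1 * x.1.2 = a.1
      rw [mul_assoc, hcen a.1 a.2, inv_mul_cancel_left]
  have hτj : ∀ a : q.ker, τ (j a) = a ^ P.index := by
    intro a
    have key : ∀ (k : ℕ) (g₀ : E), g₀⁻¹ * (j a) ^ k * g₀ ∈ PE →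
        g₀⁻¹ * (j a) ^ k * g₀ = (j a) ^ k := by
      intro k g₀ _
      rw [hjpow, hjc]
    have h1 := MonoidHom.transfer_eq_pow ρ (j a) key
    show MonoidHom.transfer ρ (j a) = _
    rw [h1]
    apply Subtype.ext
    rw [hρ1 _ (by
      show ((j a) ^ PE.index).1.1 = 1
      rw [hjpow])]
    show ((j a) ^ PE.index).1.2 = _
    rw [hjpow, hidx]
  have hkerp : IsPGroup p q.ker := hΓ₁.to_subgroup q.ker
  -- the kernel of `τ` is a complement
  let K : Subgroup E := τ.ker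
  let fK : K →* G := f.comp K.subtype
  have hinj : Function.Injective fK := by
    rw [injective_iff_map_eq_one]
    intro x hx
    have hx1 : x.1.1.1 = 1 := hx
    have hx2 : x.1.1.2 ∈ q.ker := by
      rw [MonoidHom.mem_ker]
      have : π x.1.1.1 = q x.1.1.2 := x.1.2
      rw [← this, hx1, map_one]
    have hxj : x.1 = j ⟨x.1.1.2, hx2⟩ := by
      apply Subtype.ext
      apply Prod.ext
      · exact hx1
      · rfl
    have h1 : τ x.1 = 1 := x.2
    rw [hxj, hτj] at h1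
    have h2 : (⟨x.1.1.2, hx2⟩ : q.ker) = 1 := by
      apply (hkerp.powEquiv' hP).injective
      simpa using h1
    apply Subtype.ext
    rw [hxj, h2]
    apply Subtype.ext
    rfl
  have hsurj : Function.Surjective fK := by
    intro g
    obtain ⟨x, hx⟩ := hf g
    obtain ⟨a, ha⟩ := (hkerp.powEquiv' hP).surjective (τ x)⁻¹
    have ha' : a ^ P.index = (τ x)⁻¹ := by simpa using ha
    refine ⟨⟨x * j a, ?_⟩, ?_⟩
    · show τ (x * j a) = 1
      rw [map_mul, hτj, ha', mul_inv_cancel]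
    · show (x * j a).1.1 = g
      have : (x * j a).1.1 = x.1.1 * 1 := rfl
      rw [this, mul_one]
      exact hx
  let e : K ≃* G := MulEquiv.ofBijective fK ⟨hinj, hsurj⟩
  refine ⟨(((MonoidHom.snd G Γ₁).comp E.subtype).comp K.subtype).comp e.symm.toMonoidHom, ?_⟩
  intro g
  show q ((e.symm g).1.1.2) = π g
  have h1 : π (e.symm g).1.1.1 = q (e.symm g).1.1.2 := (e.symm g).1.2
  rw [← h1]
  congr 1
  exact e.apply_symm_apply g

end Lift

end Cfsg.Agent.Lib.Helper50
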